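import Cfsg.Agent.Lib.Chev.ElOrd

/-! Semisimple elements of finite Chevalley groups through cocharacters modulo an integer. -/

set_option autoImplicit false

namespace Cfsg.Lib.E83

open Finset Matrix Cfsg.Lib.Chev RootSys PreSys Cfsg.Lib.Alg Cfsg.Lib.BN

variable {ι Φ : Type} [Fintype ι] [DecidableEq ι] {R : RootSys ι Φ}

/-- The vectors divisible by `n`. -/
def dv (ι : Type) (n : ℤ) : Submodule ℤ (ι → ℤ) where
  carrier := {x | ∀ i, n ∣ x i}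
  add_mem' ha hb i := dvd_add (ha i) (hb i)
  zero_mem' _ := dvd_zero _
  smul_mem' c _ hx i := (hx i).mul_left c

omit [Fintype ι] [DecidableEq ι] in
theorem mem_dv {n : ℤ} {x : ι → ℤ} : x ∈ dv ι n ↔ ∀ i, n ∣ x i := Iff.rfl

omit [DecidableEq ι] in
theorem dv_mulVec {n : ℤ} {x : ι → ℤ} (M : Matrix ι ι ℤ) (h : x ∈ dv ι n) : M *ᵥ x ∈ dv ι n :=
  fun _ => dvd_sum fun j _ => (h j).mul_left _

omit [Fintype ι] [DecidableEq ι] in
theorem dv_smul {n a : ℤ} (h : n ∣ a) (x : ι → ℤ) : a • x ∈ dv ι n := fun _ => h.mul_right _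

omit [Fintype ι] [DecidableEq ι] in
theorem dv_mono {n m : ℤ} (h : m ∣ n) {x : ι → ℤ} (hx : x ∈ dv ι n) : x ∈ dv ι m :=
  fun i => h.trans (hx i)

omit [Fintype ι] [DecidableEq ι] in
theorem dv_mul {l m : ℤ} (h : IsCoprime l m) {x : ι → ℤ} (h1 : x ∈ dv ι l) (h2 : x ∈ dv ι m) :
    x ∈ dv ι (l * m) := fun i => h.mul_dvd (h1 i) (h2 i)

omit [Fintype ι] [DecidableEq ι] in
theorem dv_cancel {l t : ℤ} (h : IsCoprime l t) {x : ι → ℤ} (h1 : t • x ∈ dv ι l) : x ∈ dv ι l :=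
  fun i => h.dvd_of_dvd_mul_left (h1 i)

theorem dv_ev {n : ℤ} {x : ι → ℤ} (r : Φ) (h : x ∈ dv ι n) : n ∣ R.ev r x :=
  dvd_sum fun j _ => (h j).mul_right _

omit [DecidableEq ι] in
theorem dv_mulVec_of_dvd {n : ℤ} {M : Matrix ι ι ℤ} (h : ∀ i j, n ∣ M i j) (x : ι → ℤ) :
    M *ᵥ x ∈ dv ι n := fun i => dvd_sum fun j _ => (h i j).mul_right _

omit [Fintype ι] [DecidableEq ι] in
theorem zpow_eq_iff {A : Type*} [CommGroup A] (ζ : A) (x y : ι → ℤ) :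
    (fun i => ζ ^ x i) = (fun i => ζ ^ y i) ↔ x - y ∈ dv ι (orderOf ζ) := by
  simp only [funext_iff, mem_dv, Pi.sub_apply, orderOf_dvd_sub_iff_zpow_eq_zpow]

theorem mul_wM_of_WS {S : Set Φ} {N : Matrix ι ι ℤ} (hN : ∀ r ∈ S, N *ᵥ R.co r = 0)
    {u : Equiv.Perm Φ} (hu : u ∈ R.WS S) (y : ι → ℤ) : N *ᵥ (R.wM u *ᵥ y) = N *ᵥ y := by
  have key : ∀ r ∈ S, ∀ z, N *ᵥ (R.wM (R.refl r) *ᵥ z) = N *ᵥ z := fun r hr z => by
    rw [wM_refl, mulVec_sub, mulVec_smul, hN r hr, smul_zero, sub_zero]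
  induction hu using Subgroup.closure_induction_left with
  | one => rw [wM_one, one_mulVec]
  | mul_left a ha w _ ih =>
    obtain ⟨r, hr, rfl⟩ := ha
    rw [(R.isAut_refl r).wM_mul, ← mulVec_mulVec, key r hr, ih]
  | inv_mul_cancel a ha w _ ih =>
    obtain ⟨r, hr, rfl⟩ := ha
    rw [refl_inv, (R.isAut_refl r).wM_mul, ← mulVec_mulVec, key r hr, ih]

variable [Fintype Φ]

/-- The sum over the roots of a function of the exponent. -/
noncomputable def rs (R : RootSys ι Φ) (n : ℕ) (g : ℕ → ℕ) (y : ι → ℤ) : ℕ :=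
  ∑ r, g (R.ev r y % n).toNat

theorem rs_congr {n : ℕ} (g : ℕ → ℕ) {y z : ι → ℤ} (h : y - z ∈ dv ι n) :
    rs R n g y = rs R n g z := sum_congr rfl fun r _ => by
  have := dv_ev (R := R) r h
  rw [map_sub] at this
  rw [(Int.modEq_iff_dvd.2 this).symm]

theorem rs_wM {n : ℕ} (g : ℕ → ℕ) {w : Equiv.Perm Φ} (hw : R.IsAut w) (y : ι → ℤ) :
    rs R n g (R.wM w *ᵥ y) = rs R n g y :=
  (Fintype.sum_equiv w _ _ fun r => by rw [hw.ev_wM]).symm

theorem rs_smul {n : ℕ} (g : ℕ → ℕ) {w : Equiv.Perm Φ} (hw : R.IsAut w) {y : ι → ℤ} {q : ℤ}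
    (h : R.wM w *ᵥ y - q • y ∈ dv ι n) : rs R n g (q • y) = rs R n g y := by
  rw [← rs_congr g h, rs_wM g hw]

theorem eig_pow {n q : ℤ} {M : Matrix ι ι ℤ} {y : ι → ℤ} (h : M *ᵥ y - q • y ∈ dv ι n) (s : ℤ) :
    M *ᵥ (s • y) - q • s • y ∈ dv ι n := by
  convert (dv ι n).smul_mem s h using 1
  rw [mulVec_smul]; module

theorem rs_pow {n : ℕ} (g : ℕ → ℕ) {w : Equiv.Perm Φ} (hw : R.IsAut w) {y : ι → ℤ} {q : ℤ}
    (h : R.wM w *ᵥ y - q • y ∈ dv ι n) (i : ℕ) : rs R n g (q ^ i • y) = rs R n g y := by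
  induction i with
  | zero => simp
  | succ i ih => rw [pow_succ', mul_smul, rs_smul g hw (eig_pow h _), ih]

theorem eig_conj {n q : ℤ} {v w : Equiv.Perm Φ} (hv : R.IsAut v) (hw : R.IsAut w) {y : ι → ℤ}
    (h : R.wM w *ᵥ y - q • y ∈ dv ι n) :
    R.wM (v * w * v⁻¹) *ᵥ (R.wM v *ᵥ y) - q • (R.wM v *ᵥ y) ∈ dv ι n := by
  convert dv_mulVec (R.wM v) h using 1
  rw [(hv.mul hw).wM_mul, hv.wM_mul, mulVec_mulVec, mul_assoc, hv.wM_inv_mul, mul_one,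
    mulVec_sub, mulVec_smul, mulVec_mulVec]

/-- The part of a cocharacter prime to `l` lies in the span of the coroots that centralise the
`l`-part. -/
theorem typ {l m q t : ℤ} (hl : 0 < l) {w0 w : Equiv.Perm Φ} (hw0 : w0 ∈ R.W) (hw : w ∈ R.W)
    {Y y : ι → ℤ} {N P : Matrix ι ι ℤ} (hY : R.wM w0 *ᵥ Y - q • Y ∈ dv ι l)
    (hN : ∀ r, l ∣ R.ev r Y → N *ᵥ R.co r = 0)
    (hP : ∀ i j, m ∣ (N * (R.wM w0 - q • 1) - (1 - P)) i j) (hq : IsCoprime l q)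
    (hy : R.wM w *ᵥ y - q • y ∈ dv ι (l * m)) (ht : IsCoprime l t) (hyY : y - t • Y ∈ dv ι l) :
    y - P *ᵥ y ∈ dv ι m ∧ R.wM w *ᵥ Y - q • Y ∈ dv ι l := by
  have ha0 := isAut_of_mem_W hw0
  have ha := isAut_of_mem_W hw
  have h1 : R.wM w *ᵥ Y - q • Y ∈ dv ι l := dv_cancel ht (by
    convert (dv ι l).add_mem ((dv ι l).sub_mem (dv_mono (dvd_mul_right l m) hy)
      (dv_mulVec (R.wM w) hyY)) ((dv ι l).smul_mem q hyY) using 1
    rw [mulVec_sub, mulVec_smul]; module)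
  refine ⟨?_, h1⟩
  have h2 : Y - R.wM (w * w0⁻¹) *ᵥ Y ∈ dv ι l := dv_cancel hq (by
    convert (dv ι l).sub_mem (dv_mulVec (R.wM (w * w0⁻¹)) hY) h1 using 1
    rw [mulVec_sub, mulVec_smul, mulVec_mulVec, ← (ha.mul ha0.inv).wM_mul, inv_mul_cancel_right]
    module)
  choose z hz using h2
  have h3 := mem_WS_of_modEq hl (mul_mem hw (inv_mem hw0)) (y := Y) (z := z)
    (funext fun i => by simp [← hz])
  have h4 := mul_wM_of_WS hN h3 (R.wM w0 *ᵥ y)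
  rw [mulVec_mulVec y, ← (ha.mul ha0.inv).wM_mul, inv_mul_cancel_right] at h4
  convert (dv ι m).sub_mem (dv_mulVec N (dv_mono (dvd_mul_left m l) hy)) (dv_mulVec_of_dvd hP y)
    using 1
  rw [mulVec_sub, h4, sub_mulVec, sub_mulVec, ← mulVec_mulVec, sub_mulVec, mulVec_sub,
    smul_mulVec, one_mulVec]
  abel

variable {T : ChevTab R} {k : Type*} [Field k] {G : Type*} [Group G] {C : ChevSys R k G} {p : ℕ}
  {φ : MulAut G} (h : C.Alg T p φ) [Fact p.Prime] [CharP k p] [IsAlgClosed k]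
include h

/-- An element of order `l * m` of the finite group, when the Sylow `l`-subgroup is a twisted torus
of rank two. -/
theorem syl {l m : ℕ} (hl : l.Prime) (hc : (l * m).Coprime p) {w0 : Equiv.Perm Φ} (hw0 : w0 ∈ R.W)
    {y1 y2 : ι → ℤ} (h1 : R.wM w0 *ᵥ y1 - (p : ℤ) • y1 ∈ dv ι l)
    (h2 : R.wM w0 *ᵥ y2 - (p : ℤ) • y2 ∈ dv ι l) {i1 i2 : ι} (e1 : y1 i1 = 1) (e2 : y2 i1 = 0)
    (e3 : y1 i2 = 0) (e4 : y2 i2 = 1) (hS : ¬ l ^ 3 ∣ Nat.card (fix (φ ^ 1))) (x : fix (φ ^ 1))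
    (hx : orderOf x = l * m) {ζ : kˣ} (hζ : orderOf ζ = l * m) :
    ∃ a y, ∃ w ∈ R.W, ∃ α β : ℤ, (x : G) = a * h.tor (fun i => ζ ^ y i) * a⁻¹ ∧
      orderOf (fun i => ζ ^ y i) = l * m ∧ R.wM w *ᵥ y - (p : ℤ) • y ∈ dv ι (l * m) ∧
      y - (α • y1 + β • y2) ∈ dv ι l := by
  classical
  have := h.frob.finite 1 one_pos
  have := Fact.mk hl
  have hm : m ≠ 0 := fun e => by
    rw [e, mul_zero] at hx
    exact (orderOf_pos x).ne' hx
  have ha0 := isAut_of_mem_W hw0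
  obtain ⟨g, hg⟩ := h.exists_nw_lang (isSt_pow φ one_pos) (R.W.inv_mem hw0)
  have hξ : orderOf (ζ ^ m) = l := by
    rw [orderOf_pow_of_dvd hm (hζ ▸ dvd_mul_left _ _), hζ, Nat.mul_div_cancel _ (Nat.pos_of_ne_zero hm)]
  generalize hξ' : ζ ^ m = ξ at hξ
  have hker : ∀ α β : ℤ, (fun i => ξ ^ (α • y1 + β • y2) i) ∈
      (mAct (R.wM w0⁻¹ * ((p ^ 1 : ℕ) : ℤ) • 1 - 1) : (ι → kˣ) →* _).ker := fun α β => by
    rw [ha0.inv.mem_ker_iff, inv_inv, mAct_zpow, pow_one]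
    refine .trans ((zpow_eq_iff ξ _ ((p : ℤ) • (α • y1 + β • y2))).2 ?_) (funext fun i => ?_)
    · rw [hξ]
      convert (dv ι l).add_mem (eig_pow h1 α) (eig_pow h2 β) using 1
      rw [mulVec_add]; module
    · rw [Pi.pow_apply, ← zpow_natCast, ← _root_.zpow_mul, Pi.smul_apply, smul_eq_mul, mul_comm]
  let f : Multiplicative (ℤ × ℤ) →* fix (φ ^ 1) := (h.twTor (h.pow_tor' 1) hg).comp
    (MonoidHom.mk' (fun a => ⟨_, hker a.toAdd.1 a.toAdd.2⟩) fun a b => Subtype.ext (funext fun i => by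
      simp [← _root_.zpow_add]; congr 1; ring))
  have hf : ∀ a, (f a : G) = g * h.tor (fun i => ξ ^ (a.toAdd.1 • y1 + a.toAdd.2 • y2) i) * g⁻¹ :=
    fun a => rfl
  have hP : IsPGroup l f.range := by
    rintro ⟨_, a, rfl⟩
    refine ⟨1, Subtype.ext (Subtype.ext ?_)⟩
    rw [pow_one l, Subgroup.coe_pow, Subgroup.coe_pow, hf, conj_pow, ← map_pow,
      show (fun i => ξ ^ (a.toAdd.1 • y1 + a.toAdd.2 • y2) i) ^ l = 1 from funext fun i => by
        rw [Pi.pow_apply, ← zpow_natCast, zpow_comm, zpow_natCast, ← hξ, pow_orderOf_eq_one,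
          _root_.one_zpow, Pi.one_apply]]
    simp
  have hcard : l ^ 2 ≤ Nat.card f.range := by
    let s : Fin l × Fin l → f.range := fun a => ⟨_, Multiplicative.ofAdd ((a.1 : ℤ), (a.2 : ℤ)), rfl⟩
    have hs : Function.Injective s := fun a b e => by
      have e' := congrArg (fun z : f.range => ((z : fix (φ ^ 1)) : G)) e
      simp only [s, hf, mul_left_inj, mul_right_inj] at e'
      have e'' := (zpow_eq_iff ξ _ _).1 (h.inj e')
      have a1 := e'' i1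
      have a2 := e'' i2
      simp only [hξ, Pi.sub_apply, Pi.add_apply, Pi.smul_apply, e1, e2, e3, e4, smul_eq_mul,
        mul_one, mul_zero, add_zero, zero_add, toAdd_ofAdd] at a1 a2
      have key : ∀ u v : Fin l, (l : ℤ) ∣ (u : ℤ) - v → u = v := fun u v h => by
        have := Int.eq_zero_of_abs_lt_dvd h (by have := u.2; have := v.2; rw [abs_lt]; omega)
        ext; omega
      exact Prod.ext (key _ _ a1) (key _ _ a2)
    simpa [pow_two] using Nat.card_le_card_of_injective s hs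
  obtain ⟨P, hPQ⟩ := hP.exists_le_sylow
  have hPe : f.range = P := by
    refine Subgroup.eq_of_le_of_card_ge hPQ (le_trans ?_ hcard)
    obtain ⟨e, he⟩ := IsPGroup.iff_card.1 P.isPGroup'
    rw [he]
    refine Nat.pow_le_pow_right hl.pos (not_lt.1 fun h3 => hS ?_)
    exact (pow_dvd_pow l h3).trans (he ▸ P.1.card_subgroup_dvd_card)
  have hxm : IsPGroup l (Subgroup.zpowers (x ^ m)) := IsPGroup.of_card (n := 1) (by
    rw [Nat.card_zpowers, orderOf_pow_of_dvd hm (hx ▸ dvd_mul_left _ _), hx, pow_one,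
      Nat.mul_div_cancel _ (Nat.pos_of_ne_zero hm)])
  obtain ⟨Q, hQ⟩ := hxm.exists_le_sylow
  obtain ⟨b, rfl⟩ := MulAction.exists_smul_eq (fix (φ ^ 1)) P Q
  obtain ⟨u, hu, e⟩ := hQ (Subgroup.mem_zpowers _)
  obtain ⟨z, rfl⟩ : u ∈ f.range := hPe ▸ hu
  rw [← Subgroup.orderOf_coe] at hx
  obtain ⟨a, c, w, hw, e5, h6, h7⟩ := h.exists_w_of_fix x.2 (hx ▸ hc)
  have e6 : (b : G) * f z * (b : G)⁻¹ = (x : G) ^ m := congrArg Subtype.val e
  rw [hf, e5, conj_pow, ← map_pow] at e6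
  obtain ⟨v, hv, e7⟩ := h.faithful.exists_mAct_of_conj h.hMul h.inj (h.mem (g⁻¹ * (b : G)⁻¹ * a))
    (c := c ^ m) (c' := fun i => ξ ^ (z.toAdd.1 • y1 + z.toAdd.2 • y2) i) (by
      rw [show h.hMul.torus (c ^ m) = a⁻¹ * (a * h.tor (c ^ m) * a⁻¹) * a by group, ← e6]
      group)
  have hav := isAut_of_mem_W hv
  have haw := isAut_of_mem_W hw
  obtain ⟨nv, hnv⟩ := C.exists_nw_of_mem_W hv
  have h8 : mAct (R.wM (v * w * v⁻¹)) (mAct (R.wM v) c) = mAct (R.wM v) c ^ p ^ 1 := by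
    rw [(hav.mul haw).wM_mul, hav.wM_mul, mAct_mul, mAct_mul, ← mAct_mul (R.wM v⁻¹),
      hav.wM_inv_mul, mAct_one, h7, map_pow]
  have h9 : orderOf (mAct (R.wM v) c) = l * m := by
    rw [orderOf_injective _ (Function.LeftInverse.injective (g := mAct (R.wM v⁻¹)) fun d => by
      rw [← mAct_mul, hav.wM_inv_mul, mAct_one]), h6, hx]
  have h10 := h.hMul.nw_conj_torus hnv c
  rw [map_pow] at e7
  generalize mAct (R.wM v) c = d at h8 h9 e7 h10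
  have : NeZero (l * m) := ⟨mul_ne_zero hl.ne_zero hm⟩
  have hpr : IsPrimitiveRoot ζ (l * m) := hζ ▸ IsPrimitiveRoot.orderOf ζ
  choose y hy using fun i => Subgroup.mem_zpowers_iff.1 (hpr.zpowers_eq ▸
    (congrFun (h9 ▸ pow_orderOf_eq_one d) i : d i ^ (l * m) = 1) : d i ∈ Subgroup.zpowers ζ)
  obtain rfl := funext hy
  refine ⟨a * nv⁻¹, y, _, mul_mem (mul_mem hv hw) (inv_mem hv), z.toAdd.1, z.toAdd.2, ?_, h9, ?_, ?_⟩
  · rw [e5, ← show _ = h.tor _ from h10]; group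
  · rw [mAct_zpow, pow_one] at h8
    have := (zpow_eq_iff ζ _ ((p : ℤ) • y)).1 (h8.trans (funext fun i => by
      rw [Pi.pow_apply, ← zpow_natCast, ← _root_.zpow_mul, Pi.smul_apply, smul_eq_mul, mul_comm]))
    rwa [hζ, Nat.cast_mul] at this
  · rw [← hξ, ← zpow_eq_iff, ← e7]
    ext i : 1
    rw [Pi.pow_apply, ← hξ', ← zpow_natCast, zpow_comm, zpow_natCast]

end Cfsg.Lib.E83
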