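import Cfsg.Agent.Lib.Perm.Module

/-! Simple modules of `SL₂(q)` in the defining characteristic and their weights. -/

set_option autoImplicit false

namespace Cfsg.Lib.E83

open Finset Matrix Module

abbrev S2 (F : Type*) [Field F] := Matrix.SpecialLinearGroup (Fin 2) F

section Defs

variable {F : Type*} [Field F]

def up (b : F) : S2 F := ⟨!![1, b; 0, 1], by simp [det_fin_two]⟩
def lo (b : F) : S2 F := ⟨!![1, 0; b, 1], by simp [det_fin_two]⟩
def dg (s : Fˣ) : S2 F := ⟨!![s, 0; 0, (s⁻¹ : Fˣ)], by simp [det_fin_two]⟩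
def ww : S2 F := ⟨!![0, 1; -1, 0], by simp [det_fin_two]⟩

@[simp] theorem coe_up (b : F) : (up b).1 = !![1, b; 0, 1] := rfl
@[simp] theorem coe_lo (b : F) : (lo b).1 = !![1, 0; b, 1] := rfl
@[simp] theorem coe_dg (s : Fˣ) : (dg s).1 = !![(s : F), 0; 0, (s⁻¹ : Fˣ)] := rfl
@[simp] theorem coe_ww : (ww : S2 F).1 = !![0, 1; -1, 0] := rfl

def upH : Multiplicative F →* S2 F where
  toFun b := up b.toAdd
  map_one' := by ext i j; fin_cases i <;> fin_cases j <;> simp
  map_mul' a b := by ext i j; fin_cases i <;> fin_cases j <;> simp [add_comm]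

def loH : Multiplicative F →* S2 F where
  toFun b := lo b.toAdd
  map_one' := by ext i j; fin_cases i <;> fin_cases j <;> simp
  map_mul' a b := by ext i j; fin_cases i <;> fin_cases j <;> simp

theorem mul00 (g h : S2 F) : (g * h) 0 0 = g 0 0 * h 0 0 + g 0 1 * h 1 0 := by
  simp [Matrix.mul_apply, Fin.sum_univ_two]

theorem mul01 (g h : S2 F) : (g * h) 0 1 = g 0 0 * h 0 1 + g 0 1 * h 1 1 := by
  simp [Matrix.mul_apply, Fin.sum_univ_two]

theorem det2 (g : S2 F) : g 0 0 * g 1 1 - g 0 1 * g 1 0 = 1 := by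
  have := g.2; rwa [det_fin_two] at this

/-- Two elements with the same first row differ by a lower unitriangular factor. -/
theorem exists_lo {g h : S2 F} (h0 : g 0 0 = h 0 0) (h1 : g 0 1 = h 0 1) : ∃ c, g = lo c * h := by
  refine ⟨g 1 0 * h 1 1 - g 1 1 * h 1 0, ?_⟩
  have a := det2 g
  have b := det2 h
  ext i j
  fin_cases i <;> fin_cases j <;> simp [Matrix.mul_apply, Fin.sum_univ_two, h0, h1]
  · rw [h0, h1] at a; linear_combination -g 1 0 * b + h 1 0 * a
  · rw [h0, h1] at a; linear_combination -g 1 1 * b + h 1 1 * a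

theorem exists_row {x y : F} (h : x ≠ 0 ∨ y ≠ 0) : ∃ g : S2 F, g 0 0 = x ∧ g 0 1 = y := by
  rcases h with h | h
  · exact ⟨⟨!![x, y; 0, x⁻¹], by simp [det_fin_two, h]⟩, rfl, rfl⟩
  · exact ⟨⟨!![x, y; -y⁻¹, 0], by simp [det_fin_two, h]⟩, rfl, rfl⟩

end Defs

variable {F k : Type*} [Field F] [Field k]

theorem vand {W : Type*} [AddCommGroup W] [Module k W] (S : Submodule k W) (T : Finset k) {n : ℕ}
    (hT : n ≤ T.card) (w : ℕ → W) (h : ∀ t ∈ T, ∑ l ∈ range n, t ^ l • w l ∈ S) {l : ℕ}
    (hl : l < n) : w l ∈ S := by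
  rw [← Subspace.forall_mem_dualAnnihilator_apply_eq_zero_iff]
  intro φ hφ
  have h0 : (∑ l ∈ range n, Polynomial.monomial l (φ (w l))) = 0 := by
    refine Polynomial.eq_zero_of_degree_lt_of_eval_finset_eq_zero T ?_ fun t ht => ?_
    · refine (Polynomial.degree_sum_le _ _).trans_lt ((Finset.sup_lt_iff (by simp)).2 fun i hi => ?_)
      exact (Polynomial.degree_monomial_le _ _).trans_lt (by
        exact_mod_cast (mem_range.1 hi).trans_le hT)
    · have := (Submodule.mem_dualAnnihilator φ).1 hφ _ (h t ht)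
      simpa [Polynomial.eval_finsetSum, mul_comm] using this
  have := congrArg (Polynomial.coeff · l) h0
  simpa [Polynomial.coeff_monomial, hl] using this

theorem det_of_eig {M ι : Type*} [AddCommGroup M] [Module k M] [Fintype ι] (B : Basis ι k M)
    (f : M →ₗ[k] M) (d : ι → k) (h : ∀ i, f (B i) = d i • B i) : LinearMap.det f = ∏ i, d i := by
  classical
  rw [← LinearMap.det_toMatrix B, ← det_diagonal]
  congr 1
  ext i l
  rw [LinearMap.toMatrix_apply, h, diagonal_apply]
  by_cases e : i = l <;> simp [e, Finsupp.single_apply, eq_comm]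

variable [Fintype F] (j : F →+* k) {p : ℕ} [Fact p.Prime] [CharP k p]
  {M : Type*} [AddCommGroup M] [Module k M] (ρ : Representation k (S2 F) M)

include j in
theorem isPGroup_mult : IsPGroup p (Multiplicative F) := fun b => ⟨1, by
  have : CharP F p := j.charP_iff_charP p |>.2 inferInstance
  rw [pow_one, ← ofAdd_toAdd b, ← ofAdd_nsmul, nsmul_eq_mul, CharP.cast_eq_zero, zero_mul]; rfl⟩

/-- A simple module embeds in the functions on the group and contains a power of a coordinate. -/
theorem exists_a (p : ℕ) [Fact p.Prime] [CharP k p] [Nontrivial M]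
    (hs : ∀ W : Submodule k M, (∀ g, ∀ v ∈ W, ρ g v ∈ W) → W = ⊥ ∨ W = ⊤) :
    ∃ a < Fintype.card F, ∃ Θ : M →ₗ[k] (S2 F → k), Function.Injective Θ ∧
      (∀ h m g, Θ (ρ h m) g = Θ m (g * h)) ∧ (fun g : S2 F => j (g 0 0) ^ a) ∈ LinearMap.range Θ := by
  classical
  obtain ⟨φ, -, hφ0, hφ⟩ := Cfsg.Lib.Perm.exists_fixed_vector (isPGroup_mult (p := p) j)
    (ρ.dual.comp loH) ⊤ (fun _ _ _ => trivial) top_ne_bot
  have hφ' : ∀ c m, φ (ρ (lo c) m) = φ m := fun c m => by
    have := LinearMap.congr_fun (hφ (Multiplicative.ofAdd c)⁻¹) m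
    simp only [MonoidHom.comp_apply, map_inv, Representation.dual_apply, inv_inv,
      Module.Dual.transpose_apply, LinearMap.comp_apply] at this
    exact this
  let Θ : M →ₗ[k] (S2 F → k) := LinearMap.pi fun g => φ ∘ₗ ρ g
  have hΘ : ∀ m g, Θ m g = φ (ρ g m) := fun _ _ => rfl
  have heq : ∀ h m g, Θ (ρ h m) g = Θ m (g * h) := fun h m g => by
    rw [hΘ, hΘ, map_mul, Module.End.mul_apply]
  have hinj : Function.Injective Θ := by
    rw [← LinearMap.ker_eq_bot]
    refine (hs _ fun h v hv => ?_).resolve_right fun e => hφ0 ?_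
    · ext g; rw [heq, LinearMap.mem_ker.1 hv]; rfl
    · ext m
      have : m ∈ LinearMap.ker Θ := e ▸ trivial
      simpa [hΘ] using congrFun (LinearMap.mem_ker.1 this) 1
  have hrow : ∀ m (g h : S2 F), g 0 0 = h 0 0 → g 0 1 = h 0 1 → Θ m g = Θ m h := fun m g h a b => by
    obtain ⟨c, rfl⟩ := exists_lo a b
    rw [hΘ, hΘ, map_mul, Module.End.mul_apply, hφ']
  obtain ⟨m, -, hm0, hm⟩ := Cfsg.Lib.Perm.exists_fixed_vector (isPGroup_mult (p := p) j)
    (ρ.comp upH) ⊤ (fun _ _ _ => trivial) top_ne_bot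
  have hm' : ∀ b g, Θ m (g * up b) = Θ m g := fun b g => by
    rw [← heq]; exact congrArg (Θ · g) (hm (Multiplicative.ofAdd b))
  -- it is enough to find a function of the first coordinate
  suffices H : ∃ C : F → k, C ≠ 0 ∧ ∀ s : F, (fun g : S2 F => C (g 0 0 * s)) ∈ LinearMap.range Θ by
    obtain ⟨C, hC0, hC⟩ := H
    let P := Lagrange.interpolate univ j C
    have hP : ∀ x, P.eval (j x) = C x := fun x =>
      Lagrange.eval_interpolate_at_node C j.injective.injOn (mem_univ x)
    have hd : P.natDegree < Fintype.card F := by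
      by_cases e : P = 0
      · rw [e]; exact Fintype.card_pos
      · exact (Polynomial.natDegree_lt_iff_degree_lt e).2
          (Lagrange.degree_interpolate_lt C j.injective.injOn)
    have hP0 : P ≠ 0 := fun e => hC0 (funext fun x => by rw [← hP, e]; simp)
    have := vand (LinearMap.range Θ) (univ.image j) (n := Fintype.card F)
      (by rw [card_image_of_injective _ j.injective, card_univ])
      (fun l => P.coeff l • fun g : S2 F => j (g 0 0) ^ l) (fun t ht => by
        obtain ⟨s, -, rfl⟩ := mem_image.1 ht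
        convert hC s using 1
        ext g
        rw [← hP, Polynomial.eval_eq_sum_range' hd, Finset.sum_apply]
        refine sum_congr rfl fun l _ => ?_
        simp only [Pi.smul_apply, smul_eq_mul, map_mul, mul_pow]
        ring) hd
    exact ⟨_, hd, Θ, hinj, heq, (Submodule.smul_mem_iff _ (mt Polynomial.leadingCoeff_eq_zero.1 hP0)).1
      this⟩
  -- a function of the first coordinate vanishing at zero
  have key : ∀ m', (∀ g : S2 F, g 0 0 = 0 → Θ m' g = 0) →
      (∀ g h : S2 F, g 0 0 = h 0 0 → Θ m' g = Θ m' h) → m' ≠ 0 →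
      ∃ C : F → k, C ≠ 0 ∧ ∀ s : F, (fun g : S2 F => C (g 0 0 * s)) ∈ LinearMap.range Θ := by
    intro m' h1 h2 h3
    choose γ hγ hγ' using fun x : F => exists_row (x := x) (y := 1) (Or.inr one_ne_zero)
    refine ⟨fun x => Θ m' (γ x), fun e => h3 (hinj ?_), fun s => ?_⟩
    · ext g
      rw [map_zero, h2 g (γ (g 0 0)) (hγ _).symm]
      exact congrFun e _
    · by_cases hs0 : s = 0
      · refine ⟨0, ?_⟩
        ext g
        rw [map_zero]
        exact (h1 _ (by rw [hγ, hs0, mul_zero])).symm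
      · refine ⟨ρ (dg (Units.mk0 s hs0)) m', ?_⟩
        ext g
        rw [heq]
        exact h2 _ _ (by rw [hγ, mul00]; simp)
  have hA : ∀ g h : S2 F, g 0 0 = h 0 0 → g 0 0 ≠ 0 → Θ m g = Θ m h := fun g h a b => by
    rw [← hm' ((h 0 1 - g 0 1) / g 0 0) g]
    refine hrow _ _ _ ?_ ?_
    · rw [mul00, ← a]; simp
    · rw [mul01]; simp; field_simp; ring
  have hq : (Fintype.card F : k) = 0 := by
    rw [← map_natCast j, FiniteField.cast_card_eq_zero, map_zero]
  -- the operator `T`
  let m1 := ∑ b : F, ρ (up b) (ρ ww m)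
  have hT : ∀ g, Θ m1 g = ∑ b : F, Θ m (g * up b * ww) := fun g => by
    simp only [m1, map_sum, Finset.sum_apply, heq]
  have hT0 : ∀ g : S2 F, g 0 0 = 0 → Θ m1 g = 0 := fun g hg => by
    rw [hT, sum_congr rfl fun b _ => hrow m (g * up b * ww) (g * ww) ?_ ?_, sum_const, card_univ,
      nsmul_eq_mul, hq, zero_mul]
    · simp [mul00, mul01, hg]
    · simp [mul00, mul01, hg]
  have hT1 : ∀ g h : S2 F, g 0 0 = h 0 0 → Θ m1 g = Θ m1 h := fun g h e => by
    by_cases h0 : g 0 0 = 0
    · rw [hT0 g h0, hT0 h (e ▸ h0)]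
    rw [hT, hT]
    refine Fintype.sum_equiv (Equiv.addRight ((g 0 1 - h 0 1) / g 0 0)) _ _ fun b => hrow _ _ _ ?_ ?_
    · simp [mul00, mul01, ← e]; field_simp; ring
    · simp [mul00, mul01, e]
  by_cases e1 : m1 ≠ 0
  · exact key m1 hT0 hT1 e1
  rw [not_not] at e1
  -- now the function is constant on the line `x = 0`
  choose γ hγ hγ' using fun x : F => exists_row (x := x) (y := 1) (Or.inr one_ne_zero)
  have hB : ∀ g : S2 F, g 0 0 = 0 → Θ m g = -∑ s ∈ univ.erase (0 : F), Θ m (γ s) := fun g hg => by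
    have hy : g 0 1 ≠ 0 := fun e => by have := det2 g; simp [hg, e] at this
    obtain ⟨h, h0, h1⟩ := exists_row (x := g 0 1) (y := 0) (Or.inl hy)
    have h2 := hT h
    rw [e1, map_zero, ← Fintype.sum_equiv (Equiv.mulLeft₀ (-(g 0 1)) (neg_ne_zero.2 hy)).symm
      (fun s => if s = 0 then Θ m g else Θ m (γ s)) _ fun s => ?_,
      ← add_sum_erase _ _ (mem_univ 0), if_pos rfl,
      sum_congr rfl fun s hs => if_neg (ne_of_mem_erase hs)] at h2
    · exact eq_neg_of_add_eq_zero_left h2.symm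
    have h3 : (h * up ((Equiv.mulLeft₀ (-(g 0 1)) (neg_ne_zero.2 hy)).symm s) * ww : S2 F) 0 0 = s := by
      simp [mul00, mul01, h0, h1]; field_simp
    split_ifs with hs0
    · refine hrow _ _ _ (by rw [h3, hs0, hg]) ?_
      simp [mul00, mul01, h0, h1]
    · exact hA _ _ (by rw [h3, hγ]) (by rw [hγ]; exact hs0)
  by_cases e2 : ∃ s : Fˣ, ρ (dg s) m ≠ m
  · obtain ⟨s, hs⟩ := e2
    have h0 : ∀ g : S2 F, (g * dg s) 0 0 = g 0 0 * s := fun g => by rw [mul00]; simp
    have h1 : ∀ g : S2 F, g 0 0 = 0 → Θ (ρ (dg s) m - m) g = 0 := fun g hg => by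
      rw [map_sub, Pi.sub_apply, heq, hB g hg, hB _ (by rw [h0, hg, zero_mul]), sub_self]
    refine key _ h1 (fun g h e => ?_) (sub_ne_zero.2 hs)
    by_cases hg : g 0 0 = 0
    · rw [h1 g hg, h1 h (e ▸ hg)]
    rw [map_sub, Pi.sub_apply, Pi.sub_apply, heq, heq, hA g h e hg,
      hA (g * dg s) (h * dg s) (by rw [h0, h0, e]) (by rw [h0]; exact mul_ne_zero hg s.ne_zero)]
  push Not at e2
  have h1 : ∀ g : S2 F, g 0 0 ≠ 0 → Θ m g = Θ m 1 := fun g hg => by
    have := heq (dg (Units.mk0 _ hg)) m 1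
    rw [e2, one_mul] at this
    rw [this]
    exact hA _ _ (by simp) hg
  have h2 : ∀ g : S2 F, Θ m g = Θ m 1 := fun g => by
    by_cases hg : g 0 0 = 0
    · rw [hB g hg, sum_congr rfl fun s hs => h1 (γ s) (by rw [hγ]; exact ne_of_mem_erase hs),
        sum_const, card_erase_of_mem (mem_univ _), card_univ, nsmul_eq_mul,
        Nat.cast_sub Fintype.card_pos, hq]
      simp
    · exact h1 g hg
  refine ⟨fun _ => Θ m 1, fun e => hm0 (hinj ?_), fun _ => ⟨m, funext h2⟩⟩
  ext g
  rw [h2, map_zero]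
  exact congrFun e 0

/-- The indices of the weights of the simple module of highest weight `a`. -/
def wI (p a : ℕ) : Finset ℕ := (range (a + 1)).filter fun l => ¬ p ∣ a.choose l

omit [Fintype F] [Fact p.Prime] in
theorem pow_add_eq {X : Type*} (a : ℕ) (A B : X → k) (s t : k) : (fun x => (s * A x + t * B x) ^ a) =
    ∑ l ∈ wI p a, (s ^ (a - l) * t ^ l * a.choose l) • fun x => A x ^ (a - l) * B x ^ l := by
  ext x
  rw [add_comm, add_pow, Finset.sum_apply, wI, sum_filter]
  refine sum_congr rfl fun l _ => ?_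
  split_ifs with h
  · rw [(CharP.cast_eq_zero_iff k p _).2 h, mul_zero]
  · simp only [Pi.smul_apply, smul_eq_mul, mul_pow]; ring

omit [Fact p.Prime] in
include j in
theorem mono_mem {X : Type*} {a : ℕ} (ha : a < Fintype.card F) (N : Submodule k (X → k))
    (A B : X → k) (h : ∀ t : F, (fun x => (A x + j t * B x) ^ a) ∈ N) {l : ℕ} (hl : l ∈ wI p a) :
    (fun x => A x ^ (a - l) * B x ^ l) ∈ N := by
  classical
  obtain ⟨h1, h2⟩ := mem_filter.1 hl
  have := vand N (univ.image j) (n := a + 1)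
    (by rw [card_image_of_injective _ j.injective, card_univ]; exact ha)
    (fun l => (a.choose l : k) • fun x => A x ^ (a - l) * B x ^ l) (fun t ht => by
      obtain ⟨s, -, rfl⟩ := mem_image.1 ht
      convert h s using 1
      ext x
      rw [add_comm (A x), add_pow, Finset.sum_apply]
      refine sum_congr rfl fun l _ => ?_
      simp only [Pi.smul_apply, smul_eq_mul, mul_pow]; ring) (mem_range.1 h1)
  exact (Submodule.smul_mem_iff _ (mt (CharP.cast_eq_zero_iff k p _).1 h2)).1 this

/-- `g` is conjugate to the diagonal matrix with entries `η`, `η⁻¹` over `k`. -/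
def Diag (g : S2 F) (η : kˣ) : Prop := ∃ u v : Fin 2 → k, u 0 * v 1 - u 1 * v 0 ≠ 0 ∧
  (∀ i, j (g i 0) * u 0 + j (g i 1) * u 1 = η * u i) ∧
  ∀ i, j (g i 0) * v 0 + j (g i 1) * v 1 = (η⁻¹ : kˣ) * v i

theorem det_simple (p : ℕ) [Fact p.Prime] [CharP k p] [Nontrivial M] [FiniteDimensional k M]
    (hs : ∀ W : Submodule k M, (∀ g, ∀ v ∈ W, ρ g v ∈ W) → W = ⊥ ∨ W = ⊤) :
    ∃ a < Fintype.card F, ∀ g η, Diag j g η → ∀ μ : k,
      LinearMap.det (μ • (1 : End k M) - ρ g) =
        ∏ l ∈ wI p a, (μ - (η ^ ((a : ℤ) - 2 * l) : kˣ)) := by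
  classical
  obtain ⟨a, ha, Θ, hi, heq, hX⟩ := exists_a j ρ p hs
  refine ⟨a, ha, ?_⟩
  rintro g η ⟨u, v, huv, hu, hv⟩ μ
  let f : (Fin 2 → k) → S2 F → k := fun w h => j (h 0 0) * w 0 + j (h 0 1) * w 1
  have hm : ∀ l ∈ wI p a, (fun h : S2 F => j (h 0 0) ^ (a - l) * j (h 0 1) ^ l) ∈
      LinearMap.range Θ := fun l hl => mono_mem j ha _ _ _ (fun t => by
    obtain ⟨m, hm⟩ := hX
    refine ⟨ρ (lo t) m, funext fun h => ?_⟩
    rw [heq, hm]
    simp [mul00, mul_comm]) hl
  have hf : ∀ w, (fun h => f w h ^ a) ∈ LinearMap.range Θ := fun w => by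
    simp only [f, mul_comm (j _)]
    rw [pow_add_eq (p := p)]
    exact Submodule.sum_mem _ fun l hl => Submodule.smul_mem _ _ (hm l hl)
  have hb : ∀ l ∈ wI p a, (fun h => f u h ^ (a - l) * f v h ^ l) ∈ LinearMap.range Θ :=
    fun l hl => mono_mem j ha _ _ _ (fun t => by
      convert hf (u + j t • v) using 3
      simp only [f, Pi.add_apply, Pi.smul_apply, smul_eq_mul]; ring) hl
  choose b hb using fun l : wI p a => hb l l.2
  choose c hc using fun l : wI p a => hm l l.2
  have hmul : ∀ w (h g : S2 F), f w (h * g) = f (fun i => j (g i 0) * w 0 + j (g i 1) * w 1) h :=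
    fun w h g => by simp only [f, mul00, mul01, map_add, map_mul]; ring
  -- spanning
  have hsp : ⊤ ≤ Submodule.span k (Set.range b) := by
    have h1 : (Submodule.span k (Set.range fun w h => f w h ^ a)).comap Θ = ⊤ := by
      refine (hs _ fun g m hm => ?_).resolve_left fun e => ?_
      · let T : (S2 F → k) →ₗ[k] S2 F → k := LinearMap.funLeft k k (· * g)
        have : Θ (ρ g m) = T (Θ m) := funext fun h => heq g m h
        rw [Submodule.mem_comap, this]
        refine (Submodule.map_span_le T _ _).2 ?_ (Submodule.mem_map_of_mem hm)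
        rintro _ ⟨w, rfl⟩
        exact Submodule.subset_span ⟨fun i => j (g i 0) * w 0 + j (g i 1) * w 1,
          funext fun h => congrArg (· ^ a) (hmul w h g).symm⟩
      · obtain ⟨m, hm⟩ := hX
        have : m ∈ (Submodule.span k (Set.range fun w h => f w h ^ a)).comap Θ :=
          Submodule.subset_span ⟨![1, 0], by rw [hm]; ext h; simp [f]⟩
        rw [e, Submodule.mem_bot] at this
        have h2 := congrFun hm 1
        simp [this] at h2
    intro m _
    have h2 : Θ m ∈ Submodule.span k (Set.range fun w h => f w h ^ a) := by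
      rw [← Submodule.mem_comap, h1]; trivial
    have h3 : Submodule.span k (Set.range fun w h => f w h ^ a) ≤
        (Submodule.span k (Set.range b)).map Θ := by
      rw [Submodule.span_le]
      rintro _ ⟨w, rfl⟩
      have : (fun h => f w h ^ a) = fun h =>
          ((w 0 * v 1 - w 1 * v 0) / (u 0 * v 1 - u 1 * v 0) * f u h +
            (u 0 * w 1 - u 1 * w 0) / (u 0 * v 1 - u 1 * v 0) * f v h) ^ a := by
        ext h
        congr 1
        rw [div_mul_eq_mul_div, div_mul_eq_mul_div, ← add_div, eq_div_iff huv]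
        simp only [f]; ring
      rw [SetLike.mem_coe]
      simp only
      rw [this, pow_add_eq (p := p)]
      exact Submodule.sum_mem _ fun l hl => Submodule.smul_mem _ _
        ⟨b ⟨l, hl⟩, Submodule.subset_span ⟨_, rfl⟩, hb _⟩
    obtain ⟨m', h4, h5⟩ := h3 h2
    rwa [← hi h5]
  -- independence
  have hli : LinearIndependent k c := by
    rw [Fintype.linearIndependent_iff]
    intro d hd l
    let e : ℕ → k := fun l => if h : l ∈ wI p a then d ⟨l, h⟩ else 0
    have := vand (⊥ : Submodule k k) (univ.image j) (n := a + 1)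
      (by rw [card_image_of_injective _ j.injective, card_univ]; exact ha) e (fun t ht => by
        obtain ⟨s, -, rfl⟩ := mem_image.1 ht
        have h1 := congrFun (congrArg Θ hd) (up s)
        simp only [map_sum, map_smul, hc, Finset.sum_apply, Pi.smul_apply, smul_eq_mul, map_zero,
          Pi.zero_apply] at h1
        rw [Submodule.mem_bot, ← h1, ← sum_subset (filter_subset (fun l => ¬ p ∣ a.choose l) _)
          fun l _ hl => by rw [show e l = 0 from dif_neg hl, smul_zero], ← wI, ← sum_coe_sort]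
        refine sum_congr rfl fun l _ => ?_
        simp [e, mul_comm]) (mem_range.1 (mem_filter.1 l.2).1)
    rw [Submodule.mem_bot] at this
    simpa [e] using this
  have hcard : Fintype.card (wI p a) = finrank k M :=
    le_antisymm hli.fintype_card_le_finrank (by
      rw [← finrank_top k M, ← top_le_iff.1 hsp]; exact finrank_range_le_card b)
  rw [det_of_eig (basisOfTopLeSpanOfCardEqFinrank b hsp hcard) _
    (fun l => μ - (η ^ ((a : ℤ) - 2 * (l : ℕ)) : kˣ)) fun l => ?_]
  · exact prod_coe_sort (wI p a) fun l => μ - (η ^ ((a : ℤ) - 2 * l) : kˣ)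
  rw [coe_basisOfTopLeSpanOfCardEqFinrank, LinearMap.sub_apply, sub_smul]
  congr 1
  refine hi (funext fun h => ?_)
  have hl : (l : ℕ) ≤ a := Nat.lt_succ_iff.1 (mem_range.1 (mem_filter.1 l.2).1)
  rw [heq, map_smul, Pi.smul_apply, hb]
  beta_reduce
  rw [hmul, hmul, funext hu, funext hv, smul_eq_mul,
    show (a : ℤ) - 2 * (l : ℕ) = ((a - l : ℕ) : ℤ) + -(l : ℕ) by push_cast [hl]; ring,
    _root_.zpow_add, _root_.zpow_neg, zpow_natCast, zpow_natCast, ← inv_pow]
  have h1 : ∀ (s : k) w, f (fun i => s * w i) h = s * f w h := fun s w => by simp only [f]; ring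
  rw [h1, h1]
  push_cast
  ring

universe u in
/-- The eigenvalues of semisimple elements on a module of `SL₂(q)` in the defining
characteristic. -/
theorem exists_weights (p : ℕ) [Fact p.Prime] [CharP k p] (n : ℕ) :
    ∀ {M : Type u} [AddCommGroup M] [Module k M] [FiniteDimensional k M]
      (ρ : Representation k (S2 F) M), finrank k M = n →
    ∃ A : List ℕ, (∀ a ∈ A, a < Fintype.card F) ∧ ∀ g η, Diag j g η → ∀ μ : k,
      LinearMap.det (μ • (1 : End k M) - ρ g) =
        (A.map fun a => ∏ l ∈ wI p a, (μ - (η ^ ((a : ℤ) - 2 * l) : kˣ))).prod := by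
  induction n using Nat.strong_induction_on with
  | _ n ih =>
  intro M _ _ _ ρ hn
  rcases subsingleton_or_nontrivial M with h0 | h0
  · exact ⟨[], by simp, fun g η _ μ => by simp [LinearMap.det_eq_one_of_subsingleton]⟩
  by_cases hs : ∀ W : Submodule k M, (∀ g, ∀ v ∈ W, ρ g v ∈ W) → W = ⊥ ∨ W = ⊤
  · obtain ⟨a, ha, h⟩ := det_simple j ρ p hs
    exact ⟨[a], by simpa using ha, fun g η hg μ => by simpa using h g η hg μ⟩
  push Not at hs
  obtain ⟨W, hW, h1, h2⟩ := hs
  have h3 := Submodule.finrank_quotient_add_finrank W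
  have h4 := Submodule.finrank_lt h2
  have h5 : finrank k W ≠ 0 := mt Submodule.finrank_eq_zero.1 h1
  obtain ⟨A, hA, hA'⟩ := ih _ (hn ▸ h4) (ρ.subrepresentation W hW) rfl
  obtain ⟨B, hB, hB'⟩ := ih _ (by omega) (ρ.quotient W hW) rfl
  refine ⟨A ++ B, fun a ha => (List.mem_append.1 ha).elim (hA a) (hB a), fun g η hg μ => ?_⟩
  rw [List.map_append, List.prod_append, ← hA' g η hg, ← hB' g η hg,
    LinearMap.det_eq_det_mul_det W (μ • (1 : End k M) - ρ g) fun v hv =>
      W.sub_mem (W.smul_mem μ hv) (hW g v hv)]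
  congr 2
  ext v
  simp [Representation.quotient]

end Cfsg.Lib.E83
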