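import Cfsg.Agent.Lib.E83.Gen
import Cfsg.Agent.Lib.E83.SL2Mod

/-! The eigenvalues of a non-split torus of a subgroup `L₂(q)` of a Chevalley group in the same
characteristic. -/

set_option autoImplicit false

namespace Cfsg.Lib.E83

open Finset Matrix Cfsg.Lib.Chev RootSys PreSys Cfsg.Lib.Alg Cfsg.Lie

theorem sum_eq_of_prod {k α : Type*} [Field k] [Infinite k] (s : Finset α) (d : α → k) (A : List ℕ)
    (t : ℕ → Finset ℕ) (e : ℕ → ℕ → k)
    (h : ∀ μ, ∏ i ∈ s, (μ - d i) = (A.map fun a => ∏ l ∈ t a, (μ - e a l)).prod) (f : k → ℤ) :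
    ∑ i ∈ s, f (d i) = (A.map fun a => ∑ l ∈ t a, f (e a l)).sum := by
  have h1 : s.val.map d = (A : Multiset ℕ).bind fun a => (t a).val.map (e a) := by
    rw [← Polynomial.roots_multiset_prod_X_sub_C (s.val.map d),
      ← Polynomial.roots_multiset_prod_X_sub_C (Multiset.bind _ _)]
    congr 1
    refine Polynomial.funext fun μ => ?_
    rw [Polynomial.eval_multiset_prod, Polynomial.eval_multiset_prod]
    simp only [Multiset.map_map, Function.comp_def,
      Polynomial.eval_sub, Polynomial.eval_X, Polynomial.eval_C, Multiset.map_bind,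
      Multiset.prod_bind, Multiset.map_coe, Multiset.prod_coe]
    exact h μ
  have h2 := congrArg (fun S => (S.map f).sum) h1
  simp only [Multiset.map_map, Function.comp_def, Multiset.map_bind, Multiset.sum_bind,
    Multiset.map_coe, Multiset.sum_coe] at h2
  exact h2

section Diag

variable {F k : Type*} [Field F] [Field k] {j : F →+* k}

theorem Diag.pow {g : S2 F} {η : kˣ} (h : Diag j g η) (m : ℕ) : Diag j (g ^ m) (η ^ m) := by
  obtain ⟨u, v, h0, h1, h2⟩ := h
  have key : ∀ (w : Fin 2 → k) (s : k), (∀ i, j (g i 0) * w 0 + j (g i 1) * w 1 = s * w i) →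
      ∀ i, j ((g ^ m) i 0) * w 0 + j ((g ^ m) i 1) * w 1 = s ^ m * w i := fun w s hw => by
    induction m with
    | zero => intro i; fin_cases i <;> simp
    | succ m ih =>
      intro i
      rw [pow_succ, pow_succ, mul_right_comm, ← ih i]
      simp only [Matrix.SpecialLinearGroup.coe_mul, Matrix.mul_apply, Fin.sum_univ_two, map_add, map_mul]
      linear_combination j ((g ^ m) i 0) * hw 0 + j ((g ^ m) i 1) * hw 1
  exact ⟨u, v, h0, by simpa using key u _ h1, by simpa using key v _ h2⟩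

theorem Diag.mem_center_iff {g : S2 F} {η : kˣ} (h : Diag j g η) :
    g ∈ Subgroup.center (S2 F) ↔ η ^ 2 = 1 := by
  obtain ⟨u, v, h0, h1, h2⟩ := h
  rw [Matrix.SpecialLinearGroup.mem_center_iff]
  constructor
  · rintro ⟨r, hr, e⟩
    have hr' : j r ^ 2 = 1 := by rw [← map_pow, ← map_one j]; exact congrArg j hr
    have a := h1 0
    have b := h1 1
    simp only [← e, scalar_apply, diagonal_apply_eq, ne_eq, zero_ne_one, not_false_eq_true,
      diagonal_apply_ne, map_zero, zero_mul, add_zero, one_ne_zero, zero_add] at a b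
    have : j r = η := mul_right_cancel₀ h0 (by linear_combination v 1 * a - v 0 * b)
    exact Units.ext (by rw [Units.val_pow_eq_pow_val, ← this, hr', Units.val_one])
  · intro e
    have e' : η⁻¹ = η := by rw [inv_eq_iff_mul_eq_one, ← pow_two, e]
    rw [e'] at h2
    have a00 : j (g 0 0) = η := mul_right_cancel₀ h0 (by linear_combination v 1 * h1 0 - u 1 * h2 0)
    have a01 : j (g 0 1) = 0 := mul_right_cancel₀ h0 (by linear_combination u 0 * h2 0 - v 0 * h1 0)
    have a10 : j (g 1 0) = 0 := mul_right_cancel₀ h0 (by linear_combination v 1 * h1 1 - u 1 * h2 1)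
    have a11 : j (g 1 1) = η := mul_right_cancel₀ h0 (by linear_combination u 0 * h2 1 - v 0 * h1 1)
    refine ⟨g 0 0, j.injective ?_, ?_⟩
    · rw [map_pow, a00, map_one, Fintype.card_fin, ← Units.val_pow_eq_pow_val, e, Units.val_one]
    · ext i l
      fin_cases i <;> fin_cases l
      · simp
      · simpa using ((map_eq_zero j).1 a01).symm
      · simpa using ((map_eq_zero j).1 a10).symm
      · simpa using j.injective (a00.trans a11.symm)

theorem diag_neg : Diag j (-1) (-1) := ⟨![1, 0], ![0, 1], by simp,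
  fun i => by fin_cases i <;> simp, fun i => by fin_cases i <;> simp⟩

theorem exists_diag [Fintype F] (p : ℕ) [Fact p.Prime] [CharP k p] {η : kˣ}
    (h : η ^ (Fintype.card F + 1) = 1) (h2 : η ^ 2 ≠ 1) : ∃ g, Diag j g η := by
  have : CharP F p := j.charP_iff_charP p |>.2 inferInstance
  obtain ⟨n, -, hn⟩ := FiniteField.card F p
  have h1 : η ^ Fintype.card F = η⁻¹ := by rw [eq_inv_iff_mul_eq_one, ← pow_succ, h]
  obtain ⟨τ, hτ⟩ := (pow_card_eq_iff j ((η : k) + (η⁻¹ : kˣ))).1 (by
    rw [Nat.card_eq_fintype_card, hn, add_pow_char_pow, ← hn, ← Units.val_pow_eq_pow_val,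
      ← Units.val_pow_eq_pow_val, inv_pow, h1, inv_inv, add_comm])
  refine ⟨⟨!![0, -1; 1, τ], by simp [det_fin_two]⟩, ![1, -η], ![1, -(η⁻¹ : kˣ)], fun e => h2 ?_,
    fun i => ?_, fun i => ?_⟩
  · refine Units.ext ?_
    simp only [cons_val_zero, cons_val_one, one_mul, mul_one, cons_val_fin_one] at e
    rw [Units.val_pow_eq_pow_val, Units.val_one]
    linear_combination (η : k) * e + η.mul_inv
  · fin_cases i <;> simp [hτ]
    field_simp; ring
  · fin_cases i <;> simp [hτ]
    field_simp; ring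

end Diag

variable {D : ChevalleyDatum} {ct : Cert} (hD : Checked D ct) {k : Type*} [Field k] {G : Type*}
  [Group G] {C : ChevSys hD.R k G} {p : ℕ} {φ : MulAut G} (h : C.Alg hD.T p φ)
include h

/-- The adjoint representation and the eigenvalues of semisimple elements. -/
theorem exists_adj (hR : hD.R.NoA1) : ∃ ψ : G →* Module.End k (D.Idx → k), ∀ a c (μ : k),
    LinearMap.det (μ • (1 : Module.End k (D.Idx → k)) - ψ (a * h.tor c * a⁻¹)) =
      ∏ i : D.Idx, (μ - Sum.elim (fun _ => (1 : k)) (fun r => (hD.R.chr c r : k)) i) := by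
  obtain ⟨ψ, hψ⟩ := h.faithful.exists_hom_of_adjoint h.comm hR h.top (hD.strongComm k)
    (hD.adjoint k)
  have h1 : ∀ c, (hD.adjoint k).hMul.torus c = monoG (isAut_one (R := hD.R)) (hD.R.chr c) := fun c => by
    induction c using Pi.mulSingle_induction with
    | one => rw [map_one, ← monoG_one (R := hD.R)]; exact monoG_congr _ _ rfl fun s => (hD.R.chr_one s).symm
    | mul a b ha hb =>
      rw [map_mul, ha, hb, monoG_mul]
      exact monoG_congr _ _ (one_mul _) fun s => (hD.R.chr_mul a b s).symm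
    | mulSingle i t =>
      rw [ChevSys.HMul.torus_mulSingle]
      exact ((hD.base' k).h_simple_eq i t).trans
        (monoG_congr _ _ rfl fun s => (chr_mulSingle i t s).symm)
  refine ⟨(Matrix.toLinAlgEquiv' (R := k) (n := D.Idx)).toMonoidHom.comp
    ((Units.coeHom _).comp ψ), fun a c μ => ?_⟩
  have h2 : ∀ g : G, μ • (1 : Module.End k (D.Idx → k)) -
      ((Matrix.toLinAlgEquiv' (R := k) (n := D.Idx)).toMonoidHom.comp ((Units.coeHom _).comp ψ)) g =
      Matrix.toLin' (μ • 1 - (ψ g : Matrix D.Idx D.Idx k)) := fun g => by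
    rw [map_sub, map_smul, toLin'_one]; rfl
  have h3 : μ • (1 : Matrix D.Idx D.Idx k) - (ψ (a * h.tor c * a⁻¹) : Matrix D.Idx D.Idx k) =
      ψ a * (μ • 1 - (ψ (h.tor c) : Matrix D.Idx D.Idx k)) * ((ψ a)⁻¹ : GL D.Idx k) := by
    rw [map_mul, map_mul, map_inv, mul_sub, sub_mul, Matrix.mul_smul, mul_one, Matrix.smul_mul,
      Units.mul_inv, Units.val_mul, Units.val_mul]
  rw [h2, LinearMap.det_toLin', h3, det_units_conj, h.hMul.map_torus (hD.adjoint k).hMul hψ, h1,
    coe_monoG, mono_one_eq_diagonal, smul_one_eq_diagonal, diagonal_sub, det_diagonal]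

theorem link [Fact p.Prime] [CharP k p] [IsAlgClosed k] (hR : hD.R.NoA1) {F : Type*} [Field F]
    [Fintype F] (j : F →+* k) {n : ℕ} (hn : Fintype.card F + 1 = 2 * n) (hn1 : 1 < n)
    (θ : Matrix.ProjectiveSpecialLinearGroup (Fin 2) F →* fix (φ ^ 1)) (hθ : Function.Injective θ)
    (H : ∀ x : fix (φ ^ 1), orderOf x = n → ∀ ζ : kˣ, orderOf ζ = n → ∃ (a : G) (y : Fin D.rank → ℤ),
      (x : G) = a * h.tor (fun i => ζ ^ y i) * a⁻¹ ∧ ∃ (g : ℕ → ℕ) (c : ℕ),
        rs hD.R n g y + D.rank * g 0 < (D.rank + D.nroots) * c ∧ ∀ b < n,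
          c * (wI p (2 * b)).card ≤ ∑ l ∈ wI p (2 * b), g ((b + (n - 1) * l) % n)) : False := by
  classical
  have hq : (Fintype.card F : k) = 0 := by
    rw [← map_natCast j, FiniteField.cast_card_eq_zero, map_zero]
  have h2n : ((2 * n : ℕ) : k) = 1 := by rw [← hn, Nat.cast_succ, hq, zero_add]
  have h2 : (2 : k) ≠ 0 := fun e => by simp [e] at h2n
  obtain ⟨η, hη, -⟩ := exists_primitive (k := k) (m := 2 * n) (h2n ▸ one_ne_zero)
  have hζ : orderOf (η ^ 2) = n := by
    rw [orderOf_pow_of_dvd two_ne_zero (hη ▸ dvd_mul_right _ _), hη, Nat.mul_div_cancel_left _ two_pos]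
  obtain ⟨g0, hg0⟩ := exists_diag (j := j) p (η := η) (by rw [hn, ← hη, pow_orderOf_eq_one])
    fun e => by rw [e, orderOf_one] at hζ; omega
  let π := QuotientGroup.mk' (Subgroup.center (S2 F))
  have hx : orderOf (θ (π g0)) = n := by
    rw [orderOf_injective θ hθ, ← hζ, orderOf_eq_orderOf_iff]
    intro m
    rw [← map_pow, QuotientGroup.mk'_apply, QuotientGroup.eq_one_iff, (hg0.pow m).mem_center_iff,
      pow_right_comm]
  obtain ⟨a, y, e, g, c, h3, h4⟩ := H _ hx _ hζ
  obtain ⟨ψ, hψ⟩ := exists_adj hD h hR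
  obtain ⟨A, hA, hA'⟩ := exists_weights j p _ (ψ.comp ((fix (φ ^ 1)).subtype.comp (θ.comp π))) rfl
  have hev : ∀ a ∈ A, Even a := fun a ha => by
    by_contra hodd
    have h5 := hA' _ _ diag_neg (-1)
    rw [MonoidHom.comp_apply, MonoidHom.comp_apply, MonoidHom.comp_apply,
      show π (-1) = 1 from (QuotientGroup.eq_one_iff _).2 (diag_neg (j := j).mem_center_iff.2 (by simp)),
      map_one, map_one, show (1 : G) = 1 * h.tor 1 * 1⁻¹ by simp, hψ] at h5
    refine prod_ne_zero_iff.2 (fun i _ => ?_) (h5.trans (List.prod_eq_zero (List.mem_map.2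
      ⟨a, ha, prod_eq_zero (i := 0) (by simp [wI, (Fact.out : p.Prime).ne_one]) ?_⟩)))
    · have : (-1 - 1 : k) ≠ 0 := fun e => h2 (by linear_combination -e)
      rcases i with i | i <;> simpa [chr_one] using this
    · simp [(Nat.not_even_iff_odd.1 hodd).neg_one_pow]
  have h5 := fun μ => (hψ a (fun i => (η ^ 2) ^ y i) μ).symm.trans
    ((congrArg (fun z => LinearMap.det (μ • 1 - ψ z)) e).symm.trans (hA' g0 η hg0 μ))
  generalize hζ' : η ^ 2 = ζ at hζ h5
  let f : k → ℤ := fun z => if hz : ∃ i : ℕ, z = (ζ ^ i : kˣ) then (g (hz.choose % n) : ℤ) - c else 0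
  have hf : ∀ i : ℕ, f (ζ ^ i : kˣ) = (g (i % n) : ℤ) - c := fun i => by
    have hz : ∃ l : ℕ, ((ζ ^ i : kˣ) : k) = (ζ ^ l : kˣ) := ⟨i, rfl⟩
    have := pow_inj_mod.1 (Units.ext hz.choose_spec)
    rw [hζ] at this
    simp only [f, dif_pos hz, this]
  have h6 := sum_eq_of_prod _ _ _ _ _ h5 f
  have h7 : 0 ≤ (A.map fun a => ∑ l ∈ wI p a, f (η ^ ((a : ℤ) - 2 * l) : kˣ)).sum :=
    List.sum_nonneg fun z hz => by
      obtain ⟨a, ha, rfl⟩ := List.mem_map.1 hz
      obtain ⟨b, rfl⟩ := (hev a ha).two_dvd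
      have h8 := h4 b (by have := hA _ ha; omega)
      rw [sum_congr rfl fun l _ => show f _ = (g ((b + (n - 1) * l) % n) : ℤ) - c from by
        rw [← hf]
        congr 2
        rw [← zpow_natCast ζ, ← hζ', ← zpow_natCast η, ← _root_.zpow_mul, zpow_eq_zpow_iff_modEq, hη,
          Int.modEq_iff_dvd]
        exact ⟨l, by push_cast [hn1.le]; ring⟩, sum_sub_distrib, sum_const, nsmul_eq_mul, sub_nonneg]
      exact_mod_cast mul_comm c _ ▸ h8
  rw [← h6, Fintype.sum_sum_type] at h7
  simp only [Sum.elim_inl, Sum.elim_inr] at h7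
  have h8 : ∀ r, f (hD.R.chr (fun i => ζ ^ y i) r : kˣ) = (g (hD.R.ev r y % n).toNat : ℤ) - c :=
    fun r => by
      have h9 := Int.toNat_of_nonneg (Int.emod_nonneg (hD.R.ev r y) (b := n) (by omega))
      have h10 := Int.emod_lt_of_pos (hD.R.ev r y) (b := n) (by omega)
      rw [chr_zpow, ← zpow_mod_orderOf, hζ, ← h9, zpow_natCast, hf, Nat.mod_eq_of_lt (by omega),
        Int.toNat_natCast]
  have h9 : f 1 = (g 0 : ℤ) - c := by simpa using hf 0
  simp only [h8, h9, sum_const, card_univ, Fintype.card_fin, nsmul_eq_mul, sum_sub_distrib] at h7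
  zify [rs] at h3
  linarith

end Cfsg.Lib.E83
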