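import Cfsg.Agent.Lib.E83.Comb

/-! Reduction of the cocharacters of `E₈` modulo `l * m` to finitely many normal forms. -/

set_option autoImplicit false

namespace Cfsg.Lib.E83

open Finset Matrix Cfsg.Lib.Chev RootSys PreSys Cfsg.Lie Cfsg.Lib.BN

/-- The root system of type `E₈`. -/
noncomputable abbrev RE : RootSys (Fin 8) (Fin 240) := checkedE8.R

/-- Cocharacters. -/
abbrev V8 : Type := Fin 8 → ℤ

/-- The value of a root on a cocharacter. -/
noncomputable def evN (r : ℕ) (v : V8) : ℤ := ∑ i : Fin 8, v i * caN chevE8 i r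

theorem ev_eq (r : Fin 240) (v : V8) : RE.ev r v = evN r v := by
  rw [ev_apply, evN]
  exact sum_congr rfl fun i _ => congrArg _ ((caN_eq chevE8 i r).trans (checkedE8.cartan_eq i r)).symm

/-- The matrix of a word. -/
def wm (l : List (Fin 8)) : Matrix (Fin 8) (Fin 8) ℤ :=
  Matrix.of (toM 8 8 (wordM 8 cartanE8 (l.map Fin.val)))

theorem wM_wm (l : List (Fin 8)) : RE.wM (wp RE.sref l) = wm l :=
  IsCartan.wM_wp (n := 8) (R := RE) (isCartanE8 checkedE8) (B := cartanE8) (by decide +kernel) l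

/-- The values of the roots on five vectors. -/
noncomputable def tab (n : ℕ) (Y : V8) (B : Fin 4 → V8) : List (ℕ × ℕ × ℕ × ℕ × ℕ) :=
  (List.range 240).map fun r => ((evN r Y % n).toNat, (evN r (B 0) % n).toNat,
    (evN r (B 1) % n).toNat, (evN r (B 2) % n).toNat, (evN r (B 3) % n).toNat)

/-- The sum over the roots, from a table. -/
noncomputable def sumL (L : List (ℕ × ℕ × ℕ × ℕ × ℕ)) (n : ℕ) (g : ℕ → ℕ) (t a b c d : ℕ) : ℕ :=
  List.rec 0 (fun q _ ih => Nat.add (g (Nat.mod (Nat.add (Nat.add (Nat.add (Nat.add (Nat.mul t q.1)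
    (Nat.mul a q.2.1)) (Nat.mul b q.2.2.1)) (Nat.mul c q.2.2.2.1)) (Nat.mul d q.2.2.2.2)) n)) ih) L

theorem rs_tab {n : ℕ} (hn : 0 < n) (g : ℕ → ℕ) (Y : V8) (B : Fin 4 → V8) (t : ℕ) (p : Fin 4 → ℕ) :
    rs RE n g ((t : ℤ) • Y + ∑ s, (p s : ℤ) • B s) =
      sumL (tab n Y B) n g t (p 0) (p 1) (p 2) (p 3) := by
  have h1 : ∀ L, sumL L n g t (p 0) (p 1) (p 2) (p 3) = (L.map fun q => g ((t * q.1 + p 0 * q.2.1 +
      p 1 * q.2.2.1 + p 2 * q.2.2.2.1 + p 3 * q.2.2.2.2) % n)).sum := fun L => by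
    induction L with
    | nil => rfl
    | cons q L ih => rw [List.map_cons, List.sum_cons, ← ih]; rfl
  have h2 : ∀ (k : ℕ) (f : ℕ → ℕ), ((List.range k).map f).sum = ∑ i : Fin k, f i := fun k f =>
    (Multiset.sum_coe _).symm.trans (sum_range f)
  rw [h1, tab, List.map_map, h2, rs]
  refine sum_congr rfl fun r _ => congrArg g ?_
  have h3 : ∀ z : ℤ, ((z % n).toNat : ℤ) = z % n := fun z =>
    Int.toNat_of_nonneg (Int.emod_nonneg _ (by omega))
  zify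
  simp only [h3, map_add, map_zsmul, Fin.sum_univ_four, smul_eq_mul, ev_eq]
  have h4 : ∀ a z : ℤ, a * z ≡ a * (z % n) [ZMOD n] := fun a z => (Int.mod_modEq z n).symm.mul_left a
  rw [← add_assoc, ← add_assoc, ← add_assoc]
  exact ((((h4 _ _).add (h4 _ _)).add (h4 _ _)).add (h4 _ _)).add (h4 _ _)

/-- All entries are divisible by `m`. -/
def DvM (m : ℤ) (X : Matrix (Fin 8) (Fin 8) ℤ) : Prop := ∀ i j, m ∣ X i j

instance decDvM (m : ℤ) (X : Matrix (Fin 8) (Fin 8) ℤ) : Decidable (DvM m X) :=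
  @Nat.decidableForallFin _ _ fun i => @Nat.decidableForallFin _ _ fun j => Int.decidableDvd m (X i j)

variable (l m : ℕ) (Q : ((ℕ → ℕ) → ℕ) → Prop)

/-- The property `Q` holds for the cocharacters whose `l`-part is a multiple of `Y`. -/
def TyOK (Y : V8) : Prop := ∀ (y : V8) (t : ℤ), ∀ w ∈ RE.W,
  RE.wM w *ᵥ y - (3 : ℤ) • y ∈ dv _ (l * m) → IsCoprime (l : ℤ) t → y - t • Y ∈ dv _ l →
    y ∉ dv _ m → Q fun g => rs RE (l * m) g y

variable {l m Q}

theorem tyOK_of_wM {Y z : V8} (v : List (Fin 8)) {s : ℤ} (h : TyOK l m Q Y) (hs : IsCoprime (l : ℤ) s)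
    (hz : ∀ i, (l : ℤ) ∣ (wm v *ᵥ z - s • Y) i) : TyOK l m Q z := fun y t w hw h1 h2 h3 h4 => by
  have hv := wp_mem_W (R := RE) v
  rw [← wM_wm] at hz
  generalize wp RE.sref v = u at hv hz
  have hu := isAut_of_mem_W hv
  have := h (RE.wM u *ᵥ y) (t * s) _ (mul_mem (mul_mem hv hw) (inv_mem hv))
    (eig_conj hu (isAut_of_mem_W hw) h1) (h2.mul_right hs) (by
      convert (dv _ l).add_mem (dv_mulVec (RE.wM u) h3) ((dv _ l).smul_mem t hz) using 1
      rw [mulVec_sub, mulVec_smul]; module)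
    fun h5 => h4 (by
      simpa only [mulVec_mulVec, hu.wM_inv_mul, one_mulVec] using dv_mulVec (RE.wM u⁻¹) h5)
  simpa only [rs_wM _ hu] using this

theorem tyOK_reg (hl : 0 < l) (hq : IsCoprime (l : ℤ) 3) (w0 : List (Fin 8)) {z : V8}
    (hz : wm w0 *ᵥ z - (3 : ℤ) • z ∈ dv _ l) {N : Matrix (Fin 8) (Fin 8) ℤ}
    (hN : DvM m (N * (wm w0 - (3 : ℤ) • 1) - (1 - 0)))
    (h : rs RE l (fun e => 1 - e) z = 0) : TyOK l m Q z := fun y t w hw h1 h2 h3 h4 => by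
  rw [← wM_wm] at hz hN
  refine absurd ?_ h4
  simpa using (typ (by omega) (wp_mem_W w0) hw hz (fun r hr => by
    simpa [Int.emod_eq_zero_of_dvd hr] using sum_eq_zero_iff.1 h r (mem_univ r)) hN hq h1 h2 h3).1

theorem tyOK_of (hl1 : 1 < l) (hm : 0 < m) (hq : IsCoprime (l : ℤ) 3) (hq' : IsCoprime (m : ℤ) 3)
    (hlm : IsCoprime (l : ℤ) m) (w0 : List (Fin 8)) {Y : V8} (N : Matrix (Fin 8) (Fin 8) ℤ)
    (B : Fin 4 → V8) (fr : Fin 4 → Fin 8) (T : List ℕ)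
    (hT : ∀ t < l, t ≠ 0 → ∃ i < 12, ∃ s ∈ T, 3 ^ i * t % l = s)
    (hY : ∀ i, (l : ℤ) ∣ (wm w0 *ᵥ Y - (3 : ℤ) • Y) i)
    (hN : ∀ r : Fin 240, (l : ℤ) ∣ evN r Y → N *ᵥ (fun i => coN chevE8 r i) = 0)
    (hP : DvM m (N * (wm w0 - (3 : ℤ) • 1) -
      (1 - Matrix.of fun i j => ∑ s, if j = fr s then B s i else 0)))
    (hYm : ∀ i, (m : ℤ) ∣ Y i) (hB : ∀ s i, (l : ℤ) ∣ B s i)
    (H : ∀ a < m, ∀ b < m, ∀ c < m, ∀ d < m, a + b + c + d ≠ 0 →
      sumL (tab (l * m) Y B) (l * m) (fun e => Nat.mul e e) 1 a b c d =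
        sumL (tab (l * m) Y B) (l * m) (fun e => Nat.mul e e) 3 (3 * a) (3 * b) (3 * c) (3 * d) →
      ∀ t ∈ T, Q fun g => sumL (tab (l * m) Y B) (l * m) g t a b c d) : TyOK l m Q Y := by
  rw [← wM_wm] at hY hP
  have hl : 0 < l := by omega
  have hl' : (0 : ℤ) < l := by omega
  have key : ∀ t ∈ T, ∀ (y : V8), ∀ w ∈ RE.W, RE.wM w *ᵥ y - (3 : ℤ) • y ∈ dv _ (l * m) →
      IsCoprime (l : ℤ) t → y - (t : ℤ) • Y ∈ dv _ l → y ∉ dv _ m →
        Q fun g => rs RE (l * m) g y := fun t ht y w hw h1 h2 h3 h4 => by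
    obtain ⟨h5, h6⟩ := typ hl' (wp_mem_W w0) hw hY (fun r hr => hN r (ev_eq r Y ▸ hr)) hP hq h1 h2 h3
    let p : Fin 4 → ℕ := fun s => (y (fr s) % m).toNat
    have hp : ∀ s, (p s : ℤ) = y (fr s) % m := fun s =>
      Int.toNat_of_nonneg (Int.emod_nonneg _ (by omega))
    have hp' : ∀ s, p s < m := fun s => by
      have := Int.emod_lt_of_pos (y (fr s)) (b := m) (by omega)
      have := hp s
      omega
    have h7 : y - ∑ s, (p s : ℤ) • B s ∈ dv _ m := by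
      convert (dv _ m).add_mem h5 (Submodule.sum_mem _ fun s (_ : s ∈ univ) =>
        dv_smul (Int.dvd_self_sub_emod (x := y (fr s))) (B s)) using 1
      ext i
      simp [hp, mulVec, dotProduct, sum_mul, sum_comm (s := (univ : Finset (Fin 8))), sub_mul,
        mul_comm (B _ i)]
    have h8 : ∑ s, (p s : ℤ) • B s ∈ dv _ l :=
      Submodule.sum_mem _ fun s _ => (dv _ l).smul_mem _ (hB s)
    have h9 := fun g => rs_smul (n := l * m) g (isAut_of_mem_W hw) (q := 3)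
      (y := ((1 : ℕ) : ℤ) • Y + ∑ s, (p s : ℤ) • B s) (by
        rw [Nat.cast_mul]
        refine dv_mul hlm ?_ ?_
        · convert (dv _ l).add_mem h6 ((dv _ l).sub_mem (dv_mulVec (RE.wM w) h8)
            ((dv _ l).smul_mem 3 h8)) using 1
          rw [Nat.cast_one, one_smul, mulVec_add]; module
        · have h10 := (dv _ m).sub_mem hYm h7
          convert (dv _ m).add_mem (dv_mono (dvd_mul_left _ _) h1) ((dv _ m).sub_mem
            (dv_mulVec (RE.wM w) h10) ((dv _ m).smul_mem 3 h10)) using 1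
          rw [Nat.cast_one, one_smul, mulVec_add, mulVec_sub, mulVec_sub]; module)
    have h10 : ∀ g, rs RE (l * m) g y = _ := fun g => (rs_congr g (by
      rw [Nat.cast_mul]
      refine dv_mul hlm ?_ ?_
      · convert (dv _ l).sub_mem h3 h8 using 1
        abel
      · convert (dv _ m).sub_mem h7 ((dv _ m).smul_mem t hYm) using 1
        abel)).trans (rs_tab (Nat.mul_pos hl hm) g Y B t p)
    rw [funext h10]
    refine H _ (hp' 0) _ (hp' 1) _ (hp' 2) _ (hp' 3) (fun e => h4 ?_) ?_ t ht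
    · rwa [Fin.sum_univ_four, show p 0 = 0 by omega, show p 1 = 0 by omega, show p 2 = 0 by omega,
        show p 3 = 0 by omega, Nat.cast_zero, zero_smul, zero_smul, zero_smul, zero_smul, add_zero,
        add_zero, add_zero, sub_zero] at h7
    · rw [← rs_tab (Nat.mul_pos hl hm), ← h9, ← rs_tab (Nat.mul_pos hl hm) _ Y B 3 fun s => 3 * p s]
      congr 1
      simp [smul_sum, mul_smul]
  intro y t w hw h1 h2 h3 h4
  have h5 := Int.toNat_of_nonneg (Int.emod_nonneg t hl'.ne')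
  obtain ⟨i, -, s, hs, e⟩ := hT (t % l).toNat (by have := Int.emod_lt_of_pos t hl'; omega) fun e => by
    have := h2.isUnit_of_dvd' dvd_rfl (Int.dvd_of_emod_eq_zero (by omega))
    rw [Int.isUnit_iff] at this
    omega
  have h6 : (l : ℤ) ∣ 3 ^ i * t - s := by
    rw [← e]
    push_cast [h5]
    rw [Int.mul_emod, Int.emod_emod, ← Int.mul_emod]
    exact Int.dvd_self_sub_emod
  have := key s hs ((3 : ℤ) ^ i • y) w hw (eig_pow h1 _) (by
      obtain ⟨z, hz⟩ := h6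
      rw [show (s : ℤ) = 3 ^ i * t + l * -z by linear_combination -hz]
      exact (hq.pow_right.mul_right h2).add_mul_left_right _)
    (by
      convert (dv _ l).add_mem ((dv _ l).smul_mem (3 ^ i) h3) (dv_smul h6 Y) using 1
      module)
    fun h7 => h4 (dv_cancel hq'.pow_right h7)
  rwa [funext fun g => rs_pow (n := l * m) g (isAut_of_mem_W hw) (by rwa [Nat.cast_mul]) i] at this

theorem of_lines (hl : l.Prime) {y1 y2 : V8} (h1 : ∀ c < l, TyOK l m Q (y1 + (c : ℤ) • y2))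
    (h2 : TyOK l m Q y2) {A : Type*} [CommGroup A] {ζ : A} (hζ : orderOf ζ = l * m) (hm : 1 < m)
    {y : V8} (hy : orderOf (fun i => ζ ^ y i) = l * m) {w : Equiv.Perm (Fin 240)} (hw : w ∈ RE.W)
    (h3 : RE.wM w *ᵥ y - (3 : ℤ) • y ∈ dv _ (l * m)) {α β : ℤ}
    (h4 : y - (α • y1 + β • y2) ∈ dv _ l) : Q fun g => rs RE (l * m) g y := by
  have key : ∀ a b : ℕ, a * b = l * m → 1 < a → y ∉ dv _ a := fun a b e ha h => by
    have h5 : (fun i => ζ ^ y i) ^ b = 1 := funext fun i => by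
      rw [Pi.pow_apply, ← zpow_natCast, ← _root_.zpow_mul, Pi.one_apply, ← orderOf_dvd_iff_zpow_eq_one,
        hζ, ← e, Nat.cast_mul]
      exact mul_dvd_mul_right (h i) _
    have h6 : 0 < b := Nat.pos_of_ne_zero fun e' => by
      have := Nat.mul_pos hl.pos (zero_lt_one.trans hm)
      simp [← e, e'] at this
    have := Nat.le_of_dvd h6 (hy ▸ orderOf_dvd_of_pow_eq_one h5)
    nlinarith
  have hp := Nat.prime_iff_prime_int.1 hl
  have h5 := key m l (mul_comm _ _) hm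
  by_cases hα : (l : ℤ) ∣ α
  · have h6 : y - β • y2 ∈ dv _ l := by
      convert (dv _ l).add_mem h4 (dv_smul hα y1) using 1
      abel
    refine h2 y β w hw h3 ((hp.coprime_iff_not_dvd).2 fun hβ => key l m rfl hl.one_lt ?_) h6 h5
    simpa using (dv _ l).add_mem h6 (dv_smul hβ y2)
  · have hc := (hp.coprime_iff_not_dvd).2 hα
    obtain ⟨u, v, e⟩ := hc
    have h6 := Int.toNat_of_nonneg (Int.emod_nonneg (v * β) hp.ne_zero)
    refine h1 (v * β % l).toNat (by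
      have := Int.emod_lt_of_pos (v * β) (b := l) (by have := hl.pos; omega); omega)
      y α w hw h3 ⟨u, v, e⟩ ?_ h5
    have h7 : (l : ℤ) ∣ β - α * (v * β % l) := by
      rw [show β - α * (v * β % l) = u * β * l + α * (v * β - v * β % l) by linear_combination -β * e]
      exact (dvd_mul_left _ _).add (Int.dvd_self_sub_emod.mul_left α)
    convert (dv _ l).add_mem h4 (dv_smul h7 y2) using 1
    rw [h6]; module

theorem tyOK_sp {y1 y2 Y : V8} (h : TyOK l m Q Y) (L : List (ℕ × List (Fin 8) × ℤ))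
    (hL : ∀ e ∈ L, IsCoprime (l : ℤ) e.2.2 ∧
      ∀ i, (l : ℤ) ∣ (wm e.2.1 *ᵥ (y1 + (e.1 : ℤ) • y2) - e.2.2 • Y) i) :
    ∀ c ∈ L.map Prod.fst, TyOK l m Q (y1 + (c : ℤ) • y2) := fun c hc => by
  obtain ⟨e, he, rfl⟩ := List.mem_map.1 hc
  exact tyOK_of_wM _ h (hL e he).1 (hL e he).2

theorem tyOK_lines (hl : 0 < l) (hq : IsCoprime (l : ℤ) 3) (w0 : List (Fin 8)) {y1 y2 : V8}
    (h1 : wm w0 *ᵥ y1 - (3 : ℤ) • y1 ∈ dv _ l) (h2 : wm w0 *ᵥ y2 - (3 : ℤ) • y2 ∈ dv _ l)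
    (N : Matrix (Fin 8) (Fin 8) ℤ) (hN : DvM m (N * (wm w0 - (3 : ℤ) • 1) - (1 - 0)))
    {S : List ℕ} (hS : ∀ c ∈ S, TyOK l m Q (y1 + (c : ℤ) • y2))
    (h : (∀ c < l, c ∉ S → sumL (tab l y1 ![y2, 0, 0, 0]) l (fun e => 1 - e) 1 c 0 0 0 = 0) ∧
      sumL (tab l y1 ![y2, 0, 0, 0]) l (fun e => 1 - e) 0 1 0 0 0 = 0) :
    (∀ c < l, TyOK l m Q (y1 + (c : ℤ) • y2)) ∧ TyOK l m Q y2 := by
  refine ⟨fun c hc => ?_, tyOK_reg hl hq w0 h2 hN (.trans ?_
    ((rs_tab hl _ y1 ![y2, 0, 0, 0] 0 ![1, 0, 0, 0]).trans h.2))⟩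
  · by_cases h3 : c ∈ S
    · exact hS c h3
    refine tyOK_reg hl hq w0 ?_ hN (.trans ?_
      ((rs_tab hl _ y1 ![y2, 0, 0, 0] 1 ![c, 0, 0, 0]).trans (h.1 c hc h3)))
    · convert (dv _ l).add_mem h1 (eig_pow h2 c) using 1
      rw [mulVec_add]; module
    · simp [Fin.sum_univ_four]
  · simp [Fin.sum_univ_four]

/-- A certificate excludes the eigenvalues. -/
def Ex (n : ℕ) (F : (ℕ → ℕ) → ℕ) : Prop := ∃ g c, F g + 8 * g 0 < 248 * c ∧ Good n g c

/-- The check of all normal forms of a type. -/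
noncomputable def chk (L : List (ℕ × ℕ × ℕ × ℕ × ℕ)) (n m : ℕ) (T : List ℕ) (g1 g2 : ℕ → ℕ)
    (c1 c2 : ℕ) : Bool :=
  allTo m fun a => allTo m fun b => allTo m fun c => allTo m fun d => Nat.beq (a + b + c + d) 0 ||
    !Nat.beq (sumL L n (fun e => Nat.mul e e) 1 a b c d)
      (sumL L n (fun e => Nat.mul e e) 3 (3 * a) (3 * b) (3 * c) (3 * d)) ||
    lall T fun t => Nat.blt (sumL L n g1 t a b c d + 8 * g1 0) (248 * c1) ||
      Nat.blt (sumL L n g2 t a b c d + 8 * g2 0) (248 * c2)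

theorem ex_of_chk {L : List (ℕ × ℕ × ℕ × ℕ × ℕ)} {n : ℕ} {T : List ℕ} {g1 g2 : ℕ → ℕ} {c1 c2 : ℕ}
    (h1 : Good n g1 c1) (h2 : Good n g2 c2) (h : chk L n m T g1 g2 c1 c2 = true) :
    ∀ a < m, ∀ b < m, ∀ c < m, ∀ d < m, a + b + c + d ≠ 0 →
      sumL L n (fun e => Nat.mul e e) 1 a b c d =
        sumL L n (fun e => Nat.mul e e) 3 (3 * a) (3 * b) (3 * c) (3 * d) →
      ∀ t ∈ T, Ex n fun g => sumL L n g t a b c d := fun a ha b hb c hc d hd h3 h4 t ht => by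
  have := allTo_iff.1 (allTo_iff.1 (allTo_iff.1 (allTo_iff.1 h a ha) b hb) c hc) d hd
  simp only [Bool.or_eq_true, Nat.beq_eq, h3, h4, Nat.beq_refl, Bool.not_true, lall_iff, Nat.blt_eq,
    false_or, Bool.false_eq_true] at this
  exact (this t ht).elim (fun e => ⟨_, _, e, h1⟩) fun e => ⟨_, _, e, h2⟩

end Cfsg.Lib.E83
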